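import Cfsg.Agent.Lib.SP3.Def

/-! # S3665: numerics for `G₂(q)` and `E₇(q)` -/

set_option autoImplicit false

namespace Cfsg.Lib.SPG

open Cfsg.Lib.SPL Cfsg.Lib.SP3

/-- the weak form of what the group side gives for an element order `k` all of whose primes are not joined to 2 -/
def Wk (N k : ℕ) : Prop := k ∣ N * (2 ^ N.factorization 2 - 1) ∧ ∀ r, r.Prime → r ∣ k → r ∣ N

theorem Wk.of_dvd {N k : ℕ} (h : k ∣ N) : Wk N k := ⟨h.mul_right _, fun _ _ d => d.trans h⟩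

theorem mod_three {x r : ℕ} (hr : r.Prime) (h3 : r ≠ 3) (h : r ∣ x ^ 2 + x + 1) : r % 3 = 1 := by
  have := Fact.mk hr
  have h0 : (x : ZMod r) ^ 2 + x + 1 = 0 := by
    simpa using (ZMod.natCast_eq_zero_iff _ r).2 h
  have h1 : orderOf (x : ZMod r) = 3 := orderOf_eq_prime (by linear_combination ((x : ZMod r) - 1) * h0) fun e => by
    rw [e] at h0
    exact h3 ((Nat.prime_dvd_prime_iff_eq hr Nat.prime_three).1 ((ZMod.natCast_eq_zero_iff 3 r).1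
      (by push_cast; linear_combination h0)))
  have h2 : (x : ZMod r) ≠ 0 := fun e => by simp [e] at h0
  have := h1 ▸ ZMod.orderOf_dvd_card_sub_one h2
  have := hr.pos
  omega

theorem split3 (x : ℕ) : ∃ d k, (d = 1 ∨ d = 3) ∧ x ^ 2 + x + 1 = d * k ∧ k.Coprime 3 := by
  by_cases h : 3 ∣ x ^ 2 + x + 1
  · obtain ⟨k, hk⟩ := h
    refine ⟨3, k, .inr rfl, hk, (Nat.coprime_comm.1 (Nat.prime_three.coprime_iff_not_dvd.2 ?_))⟩
    rintro ⟨m, rfl⟩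
    have h9 : (x ^ 2 + x + 1) % 9 = 0 := by omega
    have : ∀ y < 9, (y ^ 2 + y + 1) % 9 ≠ 0 := by decide
    refine this (x % 9) (Nat.mod_lt _ (by norm_num)) ?_
    rw [← h9]
    simp [Nat.add_mod, Nat.pow_mod]
  · exact ⟨1, _, .inl rfl, (one_mul _).symm, Nat.coprime_comm.1 (Nat.prime_three.coprime_iff_not_dvd.2 h)⟩

def EL : List (ℕ × ℕ) := [(7, 6), (13, 3), (19, 1), (31, 2), (37, 1), (43, 1), (67, 1)]

def YY : ℕ := 7 * 13 * 19 * 31 * 37 * 43 * 67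

def SL : List ℕ := [1, 2, 3, 4, 5, 6, 7, 9, 10, 11, 16, 18, 22, 25, 26, 29, 30, 36, 37, 49, 67, 79, 87, 100, 121, 163, 165, 178,
  191, 211, 315, 380, 439, 565, 676, 900, 1369, 1712, 2382, 2629, 3446, 11092, 25363]

theorem chkY : ∀ N ∈ ords, (N * (2 ^ N.factorization 2 - 1)).gcd (YY.gcd N ^ 10) ∣ (EL.map fun x => x.1 ^ x.2).prod ∧
    (N * (2 ^ N.factorization 2 - 1) / (N * (2 ^ N.factorization 2 - 1)).gcd (YY.gcd N ^ 10)).gcd (YY.gcd N) = 1 := by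
  decide +kernel

theorem chkS : ∀ k ∈ dv (EL.filter fun _ => true), ∀ d ∈ [1, 3],
    (d * k).sqrt ^ 2 + (d * k).sqrt + 1 = d * k → (d * k).sqrt ∈ SL := by
  decide +kernel

theorem mem_SL {N x : ℕ} (hN : N ∈ ords) (hx : 0 < x) (h : ∀ k, k ∣ x ^ 2 + x + 1 → k.Coprime 3 → Wk N k) : x ∈ SL := by
  obtain ⟨d, k, hd, e, c⟩ := split3 x
  have hk : k ∣ x ^ 2 + x + 1 := e ▸ dvd_mul_left _ _
  obtain ⟨h1, h2⟩ := h k hk c
  obtain ⟨h3, h4⟩ := chkY N hN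
  have h5 : k.Coprime (N * (2 ^ N.factorization 2 - 1) / (N * (2 ^ N.factorization 2 - 1)).gcd (YY.gcd N ^ 10)) :=
    Nat.coprime_of_dvd fun r hr d1 d2 => by
      have h6 : r % 3 = 1 := mod_three hr (by rintro rfl; simpa using Nat.Coprime.coprime_dvd_left d1 c) (d1.trans hk)
      have h7 := (by decide +kernel : ∀ r ∈ PL, r % 3 = 1 → r ∣ YY) r (mem_PL hr ((h2 r hr d1).trans (dvd_MM hN))) h6
      exact hr.one_lt.ne' (Nat.dvd_one.1 (h4 ▸ Nat.dvd_gcd d2 (Nat.dvd_gcd h7 (h2 r hr d1))))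
  rw [← Nat.mul_div_cancel' (Nat.gcd_dvd_left (N * (2 ^ N.factorization 2 - 1)) (YY.gcd N ^ 10))] at h1
  have h8 := chkS k (mem_dv (fun _ => true) EL k (by decide +kernel) ((h5.dvd_of_dvd_mul_right h1).trans h3) fun _ _ _ => rfl) d
    (by simpa using hd)
  have h9 : (d * k).sqrt = x := (Nat.eq_sqrt'.2 ⟨by omega, by nlinarith⟩).symm
  rw [h9] at h8
  exact h8 e

theorem sub_eq {q : ℕ} (hq : 1 ≤ q) : q ^ 2 - q + 1 = (q - 1) ^ 2 + (q - 1) + 1 := by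
  obtain ⟨x, rfl⟩ := Nat.exists_eq_add_of_le' hq
  rw [Nat.add_sub_cancel, show (x + 1) ^ 2 = x ^ 2 + x + (x + 1) by ring, Nat.add_sub_cancel]

theorem chkG : ∀ q ∈ SL, q - 1 ∈ SL → ∀ N ∈ ords, (∃ r ∈ PL, r ≠ 3 ∧ (r ∣ q ^ 2 + q + 1 ∨ r ∣ q ^ 2 - q + 1) ∧ ¬ r ∣ N) ∨
    ∃ s ∈ PL, s ∣ N ∧ ¬ s ∣ q * (q ^ 6 - 1) := by
  decide +kernel

theorem g2_num {N q : ℕ} (hN : N ∈ ords) (hq : 2 ≤ q)
    (h1 : ∀ k, k ∣ q ^ 2 + q + 1 ∨ k ∣ q ^ 2 - q + 1 → k.Coprime 3 → Wk N k)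
    (h3 : ∀ s, s.Prime → s ∣ N → s ∣ q * (q ^ 6 - 1)) : False := by
  rcases chkG q (mem_SL hN (by omega) fun k d => h1 k (.inl d))
    (mem_SL hN (by omega) fun k d => h1 k (.inr (sub_eq (by omega : 1 ≤ q) ▸ d))) N hN with ⟨r, a, b, c, d⟩ | ⟨s, a, b, c⟩
  · exact d ((h1 r c ((Nat.coprime_primes (PL_prime r a) Nat.prime_three).2 b)).2 r (PL_prime r a) dvd_rfl)
  · exact c (h3 s (PL_prime s a) b)

theorem cube_SL {q : ℕ} (hq : 2 ≤ q) : q ^ 3 ∉ SL ∧ (q ^ 3 - 1 ∈ SL → q = 2 ∨ q = 3) := by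
  by_cases h : q < 30
  · revert q; decide +kernel
  · have h1 : 30 ^ 3 ≤ q ^ 3 := Nat.pow_le_pow_left (by omega) 3
    have h2 : ∀ x ∈ SL, x < 26000 := by decide +kernel
    exact ⟨fun e => by have := h2 _ e; omega, fun e => by have := h2 _ e; omega⟩

theorem e7_num_plus {N q : ℕ} (hN : N ∈ ords) (hq : 2 ≤ q)
    (h1 : ∀ k, k ∣ q ^ 6 + q ^ 3 + 1 → k.Coprime 3 → Wk N k) : False :=
  (cube_SL hq).1 (mem_SL hN (by positivity) (by rwa [← pow_mul]))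

theorem e7_num_minus {N q : ℕ} (hN : N ∈ ords) (hq : 3 ≤ q)
    (h1 : ∀ k, k ∣ q ^ 6 - q ^ 3 + 1 → k.Coprime 3 → Wk N k) : False := by
  have h0 : 3 ^ 3 ≤ q ^ 3 := Nat.pow_le_pow_left hq 3
  have := (cube_SL (by omega : 2 ≤ q)).2 (mem_SL hN (by omega) (by rwa [← sub_eq (by omega), ← pow_mul]))
  obtain rfl : q = 3 := by omega
  have h2 := (h1 703 (by norm_num) (by norm_num)).2
  exact (by decide +kernel : ∀ N ∈ ords, 19 ∣ N → ¬ 37 ∣ N) N hN (h2 19 (by norm_num) (by norm_num))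
    (h2 37 (by norm_num) (by norm_num))

end Cfsg.Lib.SPG
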