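import Cfsg.Agent.Lib.SP3.Def

/-! # S3665 / S3535: the numerics for `S₄(q)` (helper18) -/

set_option autoImplicit false

namespace Cfsg.Lib.SPG

open Cfsg.Lib.SPL Cfsg.Lib.SP3

/-- the exponent of `2`, with fuel -/
def vTwo : ℕ → ℕ → ℕ
  | 0, _ => 0
  | f + 1, n => if n % 2 = 0 then vTwo f (n / 2) + 1 else 0

theorem fact_two {N : ℕ} (hN : N ∈ ords) : N.factorization 2 = vTwo 50 N := by
  obtain ⟨h1, h2⟩ :=
    (by decide +kernel : ∀ N ∈ ords, 2 ^ vTwo 50 N ∣ N ∧ ¬ 2 ^ (vTwo 50 N + 1) ∣ N) N hN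
  rw [Nat.prime_two.pow_dvd_iff_le_factorization (ords_pos hN).ne'] at h1 h2
  omega

def R4 : List (ℕ × ℕ) := [(13, 4030387200), (307, 145926144000), (7, 604800), (5, 17971200), (8, 17971200),
  (18, 17971200), (57, 145926144000)]

def c4 (k q : ℕ) : Bool :=
  q < 2 || ords.all fun N => N * (2 ^ vTwo 50 N - 1) % k != 0 || (PL.any fun r => k % r == 0 && N % r != 0) ||
    (PL.any fun s => N % s == 0 && q * (q ^ 4 - 1) % s != 0) || (q, N) ∈ R4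

def d4 (k n s : ℕ) : Bool := s * s ≤ n && n < (s + 1) * (s + 1) && (s * s != n || c4 k s)

theorem chk4 : ∀ k ∈ dv (ML.filter fun x => x.1 % 4 == 1), ∀ d ∈ [1, 2],
    d4 k (d * k - 1) (nw (d * k - 1) 100 (d * k)) = true := by decide +kernel

theorem chk4' : ∀ N ∈ ords, ∀ r ∈ PL, r % 4 = 1 →
    ¬ r ∣ N * (2 ^ vTwo 50 N - 1) / (N * (2 ^ vTwo 50 N - 1)).gcd MM := by decide +kernel

theorem mod_four_of_dvd {q r : ℕ} (hr : r.Prime) (h2 : r ≠ 2) (h : r ∣ q ^ 2 + 1) : r % 4 = 1 := by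
  have := Fact.mk hr
  have h1 : (q : ZMod r) ^ 2 = -1 := by
    have := (ZMod.natCast_eq_zero_iff _ _).2 h
    push_cast at this
    exact eq_neg_of_add_eq_zero_left this
  have h3 := ZMod.mod_four_ne_three_of_sq_eq_neg_one h1
  have h4 := hr.eq_two_or_odd.resolve_left h2
  omega

/-- the form with an explicit torus order `k`, `d * k = q ^ 2 + 1` -/
theorem num4 {N q k d : ℕ} (hN : N ∈ ords) (hq : 2 ≤ q) (hd : d = 1 ∨ d = 2) (e : d * k = q ^ 2 + 1) (ho : Odd k)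
    (h1 : k ∣ N * (2 ^ N.factorization 2 - 1)) (h2 : ∀ r, r.Prime → r ∣ k → r ∣ N)
    (h3 : ∀ s, s.Prime → s ∣ N → s ∣ q * (q ^ 4 - 1)) : (q, N) ∈ R4 := by
  rw [fact_two hN] at h1
  have m4 : ∀ r, r.Prime → r ∣ k → r % 4 = 1 := fun r hr d =>
    mod_four_of_dvd hr (by rintro rfl; exact (Nat.not_even_iff_odd.2 ho) (even_iff_two_dvd.2 d)) (e ▸ d.mul_left _)
  have hM : k ∣ MM := by
    have c : k.Coprime (N * (2 ^ vTwo 50 N - 1) / (N * (2 ^ vTwo 50 N - 1)).gcd MM) :=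
      Nat.coprime_of_dvd fun r hr d => chk4' N hN r (mem_PL hr ((h2 r hr d).trans (dvd_MM hN))) (m4 r hr d)
    refine (c.dvd_of_dvd_mul_right ?_).trans (Nat.gcd_dvd_right (N * (2 ^ vTwo 50 N - 1)) MM)
    rwa [Nat.mul_div_cancel' (Nat.gcd_dvd_left _ _)]
  have h := chk4 k (mem_dv_MM (· % 4 == 1) hM fun r a b => by simpa using m4 r a b) d (by simpa)
  generalize nw _ _ _ = s at h
  simp only [d4, Bool.and_eq_true, decide_eq_true_eq, Bool.or_eq_true, bne_iff_ne] at h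
  have e' : q * q = d * k - 1 := by rw [e, sq]; omega
  obtain rfl := eq_of_sq h.1 e'
  have c := h.2.resolve_left (not_not.2 e')
  simp only [c4, Bool.or_eq_true, decide_eq_true_eq, List.all_eq_true, beq_iff_eq, bne_iff_ne, List.any_eq_true,
    Bool.and_eq_true] at c
  rcases c.resolve_left (by omega) N hN with ((c | ⟨r, a1, a2, a3⟩) | ⟨s, a1, a2, a3⟩) | c
  exacts [(c (Nat.mod_eq_zero_of_dvd h1)).elim,
    (a3 (Nat.mod_eq_zero_of_dvd (h2 r (PL_prime r a1) (Nat.dvd_of_mod_eq_zero a2)))).elim,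
    (a3 (Nat.mod_eq_zero_of_dvd (h3 s (PL_prime s a1) (Nat.dvd_of_mod_eq_zero a2)))).elim, c]

/-- the odd part of `q ^ 2 + 1` -/
theorem exists_odd_part (q : ℕ) : ∃ d k, (d = 1 ∨ d = 2) ∧ d * k = q ^ 2 + 1 ∧ Odd k := by
  rcases Nat.even_or_odd' q with ⟨t, rfl | rfl⟩
  · exact ⟨1, (2 * t) ^ 2 + 1, .inl rfl, one_mul _, 2 * t ^ 2, by ring⟩
  · exact ⟨2, 2 * (t ^ 2 + t) + 1, .inr rfl, by ring, t ^ 2 + t, rfl⟩

theorem s4_num {N q : ℕ} (hN : N ∈ ords) (hpp : IsPrimePow q)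
    (h1 : ∀ k, k ∣ q ^ 2 + 1 → Odd k → k ∣ N * (2 ^ N.factorization 2 - 1) ∧ ∀ r, r.Prime → r ∣ k → r ∣ N)
    (h3 : ∀ s, s.Prime → s ∣ N → s ∣ q * (q ^ 4 - 1)) :
    (N = 4030387200 ∧ q = 13) ∨ (N = 145926144000 ∧ q = 307) ∨ (N = 604800 ∧ q = 7) ∨
      (N = 17971200 ∧ q = 5) ∨ (N = 17971200 ∧ q = 8) := by
  obtain ⟨d, k, hd, e, ho⟩ := exists_odd_part q
  obtain ⟨a, b⟩ := h1 k (e ▸ dvd_mul_left k d) ho
  have h := num4 hN hpp.two_le hd e ho a b h3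
  simp only [R4, List.mem_cons, Prod.mk.injEq, List.not_mem_nil, or_false] at h
  rcases h with h | h | h | h | h | ⟨rfl, -⟩ | ⟨rfl, -⟩
  exacts [.inl h.symm, .inr (.inl h.symm), .inr (.inr (.inl h.symm)), .inr (.inr (.inr (.inl h.symm))),
    .inr (.inr (.inr (.inr h.symm))), absurd hpp (by decide +kernel), absurd hpp (by decide +kernel)]

/-- the same when the torus order divides `N` itself -/
theorem s4_num' {N q : ℕ} (hN : N ∈ ords) (hpp : IsPrimePow q) (h1 : ∀ k, k ∣ q ^ 2 + 1 → Odd k → k ∣ N)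
    (h3 : ∀ s, s.Prime → s ∣ N → s ∣ q * (q ^ 4 - 1)) :
    (N = 4030387200 ∧ q = 13) ∨ (N = 145926144000 ∧ q = 307) ∨ (N = 604800 ∧ q = 7) ∨
      (N = 17971200 ∧ q = 5) ∨ (N = 17971200 ∧ q = 8) :=
  s4_num hN hpp (fun k a b => ⟨(h1 k a b).mul_right _, fun _ _ d => d.trans (h1 k a b)⟩) h3

end Cfsg.Lib.SPG
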